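import Mathlib

set_option autoImplicit false
set_option linter.style.haveILetI false

/-! A `p`-subgroup of `SL_n` in characteristic `p` fixes a flag invariant under its normaliser. -/

namespace Cfsg.Agent.H70

open Matrix

variable {F : Type*} [Field F] {n : ℕ}

/-- The natural action of a special linear matrix. -/
def slAct (g : SpecialLinearGroup (Fin n) F) : (Fin n → F) →ₗ[F] (Fin n → F) :=
  Matrix.mulVecLin (g : Matrix (Fin n) (Fin n) F)

theorem slAct_mul (g h : SpecialLinearGroup (Fin n) F) (v : Fin n → F) :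
    slAct (g * h) v = slAct g (slAct h v) := by
  show (((g : Matrix (Fin n) (Fin n) F) * (h : Matrix (Fin n) (Fin n) F))).mulVec v = _
  rw [← Matrix.mulVec_mulVec]; rfl

theorem slAct_one (v : Fin n → F) : slAct (1 : SpecialLinearGroup (Fin n) F) v = v :=
  Matrix.one_mulVec v

/-- One step of the fixed-point series of `U` modulo `W`. -/
def fixStep (U : Subgroup (SpecialLinearGroup (Fin n) F)) (W : Submodule F (Fin n → F)) :
    Submodule F (Fin n → F) :=
  ⨅ u ∈ U, W.comap (slAct u - LinearMap.id)

theorem mem_fixStep {U : Subgroup (SpecialLinearGroup (Fin n) F)} {W : Submodule F (Fin n → F)} {v : Fin n → F} :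
    v ∈ fixStep U W ↔ ∀ u ∈ U, slAct u v - v ∈ W := by
  simp [fixStep]

/-- The fixed-point series of `U`. -/
def fixSeries (U : Subgroup (SpecialLinearGroup (Fin n) F)) : ℕ → Submodule F (Fin n → F)
  | 0 => ⊥
  | i + 1 => fixStep U (fixSeries U i)

theorem fixSeries_stable (U : Subgroup (SpecialLinearGroup (Fin n) F)) :
    ∀ i, ∀ u ∈ U, ∀ v ∈ fixSeries U i, slAct u v ∈ fixSeries U i := by
  intro i
  induction i with
  | zero =>
    intro u _ v hv
    rw [fixSeries, Submodule.mem_bot] at hv ⊢
    rw [hv, map_zero]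
  | succ i ih =>
    intro u hu v hv
    rw [fixSeries, mem_fixStep] at hv ⊢
    intro w hw
    have h1 := ih u hu _ (hv (u⁻¹ * w * u) (U.mul_mem (U.mul_mem (U.inv_mem hu) hw) hu))
    rw [map_sub, ← slAct_mul, ← mul_assoc, ← mul_assoc, mul_inv_cancel, one_mul, slAct_mul] at h1
    exact h1

theorem fixSeries_le_succ (U : Subgroup (SpecialLinearGroup (Fin n) F)) (i : ℕ) :
    fixSeries U i ≤ fixSeries U (i + 1) := by
  intro v hv
  show v ∈ fixStep U _
  rw [mem_fixStep]
  exact fun u hu => Submodule.sub_mem _ (fixSeries_stable U i u hu v hv) hv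

theorem fixSeries_normalizer (U : Subgroup (SpecialLinearGroup (Fin n) F))
    {g : SpecialLinearGroup (Fin n) F}
    (hg : g ∈ Subgroup.normalizer (U : Set (SpecialLinearGroup (Fin n) F))) :
    ∀ i, (fixSeries U i).map (slAct g) ≤ fixSeries U i := by
  intro i
  induction i with
  | zero => simp [fixSeries]
  | succ i ih =>
    rintro _ ⟨v, hv, rfl⟩
    rw [fixSeries, SetLike.mem_coe, mem_fixStep] at hv
    rw [fixSeries, mem_fixStep]
    intro u hu
    have hconj : g⁻¹ * u * g ∈ U :=
      (Subgroup.mem_normalizer_iff''.1 hg u).1 hu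
    have h1 := ih ⟨_, hv _ hconj, rfl⟩
    rw [map_sub, ← slAct_mul, ← mul_assoc, ← mul_assoc, mul_inv_cancel, one_mul, slAct_mul] at h1
    exact h1

theorem slAct_injective (g : SpecialLinearGroup (Fin n) F) : Function.Injective (slAct g) := by
  intro v w h
  have := congrArg (slAct g⁻¹) h
  rwa [← slAct_mul, ← slAct_mul, inv_mul_cancel, slAct_one, slAct_one] at this

theorem fixSeries_lt_succ [Finite F] (p : ℕ) [Fact p.Prime] [CharP F p]
    (U : Subgroup (SpecialLinearGroup (Fin n) F)) (hU : IsPGroup p ↥U) (i : ℕ) (h : fixSeries U i ≠ ⊤) :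
    fixSeries U i < fixSeries U (i + 1) := by
  set W := fixSeries U i with hW
  let Q := (Fin n → F) ⧸ W
  let act : ↥U → Q →ₗ[F] Q := fun u => W.mapQ W (slAct u.1) fun v hv => fixSeries_stable U i u.1 u.2 v hv
  letI : MulAction ↥U Q :=
    { smul := fun u x => act u x
      one_smul := fun x => by
        induction x using Submodule.Quotient.induction_on with
        | _ v => exact congrArg Submodule.Quotient.mk (slAct_one v)
      mul_smul := fun a b x => by
        induction x using Submodule.Quotient.induction_on with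
        | _ v => exact congrArg Submodule.Quotient.mk (slAct_mul a.1 b.1 v) }
  haveI : Nontrivial Q := Submodule.Quotient.nontrivial_iff.2 h
  haveI : Finite Q := Finite.of_surjective _ (Submodule.Quotient.mk_surjective W)
  have hdvd : p ∣ Nat.card Q := by
    obtain ⟨x, hx⟩ := exists_ne (0 : Q)
    have hord : addOrderOf x = p := addOrderOf_eq_prime (by
      rw [← Nat.cast_smul_eq_nsmul F, CharP.cast_eq_zero, zero_smul]) hx
    rw [← hord]
    exact addOrderOf_dvd_natCard x
  have h0 : (0 : Q) ∈ MulAction.fixedPoints ↥U Q := fun u => map_zero (act u)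
  obtain ⟨y, hy, hy0⟩ := hU.exists_fixed_point_of_prime_dvd_card_of_fixed_point Q hdvd h0
  obtain ⟨v, rfl⟩ := Submodule.Quotient.mk_surjective W y
  refine lt_of_le_of_ne (fixSeries_le_succ U i) fun e => ?_
  have hv : v ∈ fixSeries U (i + 1) := by
    rw [fixSeries, mem_fixStep]
    intro u hu
    exact (Submodule.Quotient.eq W).1 (hy ⟨u, hu⟩)
  rw [← e] at hv
  exact hy0 ((Submodule.Quotient.mk_eq_zero W).2 hv).symm

theorem borel_tits_sl [Fintype F] (p : ℕ) [Fact p.Prime] [CharP F p]
    (U : Subgroup (SpecialLinearGroup (Fin n) F)) (hU : IsPGroup p ↥U) (hne : U ≠ ⊥) :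
    ∃ (k : ℕ) (V : Fin (k + 2) → Submodule F (Fin n → F)), 1 ≤ k ∧ StrictMono V ∧ V 0 = ⊥ ∧
      V (Fin.last (k + 1)) = ⊤ ∧
      (∀ g ∈ Subgroup.normalizer (U : Set (SpecialLinearGroup (Fin n) F)), ∀ i,
        (V i).map (Matrix.mulVecLin (g : Matrix (Fin n) (Fin n) F)) = V i) ∧
      (∀ u ∈ U, ∀ i : Fin (k + 1), ∀ v ∈ V i.succ,
        (u : Matrix (Fin n) (Fin n) F).mulVec v - v ∈ V (Fin.castSucc i)) := by
  classical
  have hex : ∃ m, fixSeries U m = ⊤ := by
    by_contra hcon
    push Not at hcon
    have hrank : ∀ m, m ≤ Module.finrank F (fixSeries U m) := by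
      intro m
      induction m with
      | zero => simp
      | succ m ih =>
        have := Submodule.finrank_lt_finrank_of_lt (fixSeries_lt_succ p U hU m (hcon m))
        omega
    have h1 := hrank (n + 1)
    have h2 := (fixSeries U (n + 1)).finrank_le
    rw [Module.finrank_fin_fun] at h2
    omega
  set L := Nat.find hex with hL
  have hLtop : fixSeries U L = ⊤ := Nat.find_spec hex
  have hlt : ∀ i < L, fixSeries U i < fixSeries U (i + 1) := fun i hi =>
    fixSeries_lt_succ p U hU i (Nat.find_min hex hi)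
  have hfix : fixSeries U 1 ≠ ⊤ := by
    intro h
    apply hne
    rw [Subgroup.eq_bot_iff_forall]
    intro u hu
    apply Subtype.ext
    apply Matrix.toLin'.injective
    refine LinearMap.ext fun v => ?_
    have := (mem_fixStep.1 (show v ∈ fixStep U (fixSeries U 0) by
      show v ∈ fixSeries U 1
      rw [h]; exact Submodule.mem_top)) u hu
    rw [fixSeries, Submodule.mem_bot, sub_eq_zero] at this
    simpa [slAct] using this
  have h2 : 2 ≤ L := by
    rcases Nat.lt_or_ge L 2 with hL2 | hL2
    · exfalso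
      rcases (by omega : L = 0 ∨ L = 1) with h | h
      · rw [h] at hLtop
        exact hfix (top_le_iff.1 (hLtop ▸ fixSeries_le_succ U 0))
      · exact hfix (h ▸ hLtop)
    · exact hL2
  obtain ⟨k, hk⟩ : ∃ k, L = k + 2 - 1 := ⟨L - 1, by omega⟩
  refine ⟨k, fun i => fixSeries U i.val, by omega, ?_, rfl, ?_, ?_, ?_⟩
  · rw [Fin.strictMono_iff_lt_succ]
    intro i
    simpa using hlt i.val (by omega)
  · show fixSeries U (k + 1) = ⊤
    rw [show k + 1 = L by omega]; exact hLtop
  · intro g hg i
    exact Submodule.eq_of_le_of_finrank_eq (fixSeries_normalizer U hg i.val)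
      ((fixSeries U i.val).equivMapOfInjective _ (slAct_injective g)).finrank_eq.symm
  · intro u hu i v hv
    simp only [Fin.val_succ, fixSeries, mem_fixStep] at hv
    exact hv u hu

end Cfsg.Agent.H70
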