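import Mathlib

set_option autoImplicit false
set_option linter.style.haveILetI false

/-! Bruhat decomposition of `GL_n` over a field. -/

namespace Cfsg.Agent.H70

open Matrix

variable {n : ℕ} {F : Type*} [Field F]

/-- Upper triangular invertible matrices, as a subgroup given by closure of the property. -/
def IsUpperTri (g : GL (Fin n) F) : Prop := (g : Matrix (Fin n) (Fin n) F).BlockTriangular id

theorem IsUpperTri.mul {g h : GL (Fin n) F} (hg : IsUpperTri g) (hh : IsUpperTri h) : IsUpperTri (g * h) :=
  Matrix.BlockTriangular.mul hg hh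

theorem isUpperTri_one : IsUpperTri (1 : GL (Fin n) F) := Matrix.blockTriangular_one

theorem IsUpperTri.inv {g : GL (Fin n) F} (hg : IsUpperTri g) : IsUpperTri g⁻¹ := by
  have : Invertible (g : Matrix (Fin n) (Fin n) F) := g.invertible
  show ((g⁻¹ : GL (Fin n) F) : Matrix (Fin n) (Fin n) F).BlockTriangular id
  rw [Matrix.coe_units_inv]
  exact Matrix.blockTriangular_inv_of_blockTriangular hg

/-- The permutation matrix with `e_x ↦ e_{σ x}`. -/
def permGL : Equiv.Perm (Fin n) →* GL (Fin n) F :=
  MonoidHom.toHomUnits
    { toFun := fun σ => Matrix.of fun i j => if i = σ j then (1 : F) else 0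
      map_one' := by
        ext i j
        rw [Matrix.one_apply, Matrix.of_apply]
        by_cases h : i = j <;> simp [h]
      map_mul' := fun σ τ => by
        ext i j
        rw [Matrix.mul_apply, Finset.sum_eq_single (τ j)]
        · by_cases h : i = σ (τ j) <;> simp [h]
        · intro b _ hb; simp [hb]
        · simp }

theorem permGL_apply (σ : Equiv.Perm (Fin n)) (i j : Fin n) :
    ((permGL σ : GL (Fin n) F) : Matrix (Fin n) (Fin n) F) i j = if i = σ j then 1 else 0 := rfl

/-- A unit built from a rank-one update with trivial dot product. -/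
def updGL (u v : Fin n → F) (h : v ⬝ᵥ u = 0) : GL (Fin n) F where
  val := 1 + vecMulVec u v
  inv := 1 - vecMulVec u v
  val_inv := by
    simp only [add_mul, mul_sub, one_mul, mul_one, vecMulVec_mul_vecMulVec, h, zero_smul, vecMulVec_zero]
    abel
  inv_val := by
    simp only [sub_mul, mul_add, one_mul, mul_one, vecMulVec_mul_vecMulVec, h, zero_smul, vecMulVec_zero]
    abel

/-- The first `k` columns are cleared. -/
def Cleared (h : Matrix (Fin n) (Fin n) F) (k : ℕ) : Prop :=
  ∀ l : Fin n, l.val < k → ∃ p : Fin n, (∀ i, h i l ≠ 0 ↔ i = p) ∧ ∀ l', l' ≠ l → h p l' = 0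

theorem exists_cleared (g : GL (Fin n) F) : ∀ k ≤ n, ∃ b c : GL (Fin n) F,
    IsUpperTri b ∧ IsUpperTri c ∧ Cleared ((b * g * c : GL (Fin n) F) : Matrix (Fin n) (Fin n) F) k := by
  intro k
  induction k with
  | zero => exact fun _ => ⟨1, 1, isUpperTri_one, isUpperTri_one, fun l hl => absurd hl (Nat.not_lt_zero _)⟩
  | succ k ih =>
    intro hk
    obtain ⟨b, c, hb, hc, hcl⟩ := ih (by omega)
    set G := b * g * c with hG
    set h : Matrix (Fin n) (Fin n) F := (G : Matrix (Fin n) (Fin n) F) with hh
    let j : Fin n := ⟨k, by omega⟩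
    classical
    have hne : (Finset.univ.filter fun i => h i j ≠ 0).Nonempty := by
      by_contra hcon
      simp only [Finset.not_nonempty_iff_eq_empty, Finset.filter_eq_empty_iff, Finset.mem_univ, true_implies,
        ne_eq, not_not] at hcon
      have : h.det = 0 := Matrix.det_eq_zero_of_column_eq_zero j fun i => @hcon i
      exact ((Matrix.isUnit_iff_isUnit_det _).1 G.isUnit).ne_zero this
    set i₀ := (Finset.univ.filter fun i => h i j ≠ 0).max' hne with hi₀
    have hi0 : h i₀ j ≠ 0 := (Finset.mem_filter.1 ((Finset.univ.filter fun i => h i j ≠ 0).max'_mem hne)).2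
    have hmax : ∀ i, i₀ < i → h i j = 0 := fun i hi => by
      by_contra hc0
      exact absurd ((Finset.univ.filter fun i => h i j ≠ 0).le_max' i (Finset.mem_filter.2 ⟨Finset.mem_univ _, hc0⟩))
        (not_le.2 hi)
    have hzero : ∀ l : Fin n, l.val < k → h i₀ l = 0 := by
      intro l hl
      obtain ⟨p, hp, hprow⟩ := hcl l hl
      by_contra hcon
      have : i₀ = p := (hp i₀).1 hcon
      exact hi0 (this ▸ hprow j fun e => by rw [← e] at hl; exact lt_irrefl _ hl)
    let u : Fin n → F := fun i => if i = i₀ then 0 else -(h i j / h i₀ j)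
    let v : Fin n → F := fun l => if j < l then -(h i₀ l / h i₀ j) else 0
    let L := updGL u (Pi.single i₀ 1) (by simp [u])
    let R := updGL (Pi.single j 1) v (by simp [v])
    have hL : IsUpperTri L := by
      intro x y hxy
      change (1 + vecMulVec u (Pi.single i₀ 1)) x y = 0
      have hxy' : y < x := hxy
      rw [Matrix.add_apply, Matrix.one_apply_ne hxy'.ne', zero_add, vecMulVec_apply]
      by_cases hy : y = i₀
      · subst hy; simp [u, hxy'.ne', hmax x hxy']
      · simp [hy]
    have hR : IsUpperTri R := by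
      intro x y hxy
      change (1 + vecMulVec (Pi.single j 1) v) x y = 0
      have hxy' : y < x := hxy
      rw [Matrix.add_apply, Matrix.one_apply_ne hxy'.ne', zero_add, vecMulVec_apply]
      by_cases hx : x = j
      · subst hx; simp [v, hxy'.not_gt]
      · simp [hx]
    refine ⟨L * b, c * R, hL.mul hb, hc.mul hR, ?_⟩
    have e : L * b * g * (c * R) = L * G * R := by simp only [hG, mul_assoc]
    rw [e]
    let h1 : Matrix (Fin n) (Fin n) F := Matrix.of fun i l => h i l + u i * h i₀ l
    have hLh : ((L * G : GL (Fin n) F) : Matrix (Fin n) (Fin n) F) = h1 := by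
      ext i l
      change ((1 + vecMulVec u (Pi.single i₀ 1)) * h) i l = _
      rw [add_mul, one_mul, Matrix.add_apply, Matrix.mul_apply, Finset.sum_eq_single i₀]
      · simp [h1, vecMulVec_apply]
      · intro y _ hy; simp [vecMulVec_apply, hy]
      · simp
    have hfin : ∀ i l, ((L * G * R : GL (Fin n) F) : Matrix (Fin n) (Fin n) F) i l = h1 i l + h1 i j * v l := by
      intro i l
      change (((L * G : GL (Fin n) F) : Matrix (Fin n) (Fin n) F) * (1 + vecMulVec (Pi.single j 1) v)) i l = _
      rw [hLh, mul_add, mul_one, Matrix.add_apply, Matrix.mul_apply, Finset.sum_eq_single j]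
      · simp [vecMulVec_apply]
      · intro y _ hy; simp [vecMulVec_apply, hy]
      · simp
    have hcol : ∀ i, h1 i j = if i = i₀ then h i₀ j else 0 := by
      intro i
      by_cases hi : i = i₀
      · subst hi; simp [h1, u]
      · simp [h1, u, hi, hi0]
    intro l hl
    rcases Nat.lt_or_ge l.val k with hlk | hlk
    · obtain ⟨p, hp, hprow⟩ := hcl l hlk
      have hpi : p ≠ i₀ := by
        intro e; exact (hp p).2 rfl (e ▸ hzero l hlk)
      have hpj : h p j = 0 := hprow j fun e => by rw [← e] at hlk; exact lt_irrefl _ hlk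
      have hcell : ∀ i, ((L * G * R : GL (Fin n) F) : Matrix (Fin n) (Fin n) F) i l = h i l := by
        intro i
        rw [hfin]
        have : v l = 0 := by
          simp only [v]; rw [if_neg]; exact fun hjl => absurd hjl (not_lt.2 (le_of_lt (show l.val < j.val from hlk)))
        simp [this, h1, hzero l hlk]
      refine ⟨p, fun i => by rw [hcell]; exact hp i, fun l' hl' => ?_⟩
      rw [hfin]
      simp [h1, u, hpi, hpj, hprow l' hl']
    · have hlj : l = j := Fin.ext (by simp [j]; omega)
      subst hlj
      refine ⟨i₀, fun i => ?_, fun l' hl' => ?_⟩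
      · rw [hfin, hcol]
        have : v j = 0 := by simp [v]
        by_cases hi : i = i₀ <;> simp [this, hi, hi0]
      · rw [hfin]
        simp only [h1, u, Matrix.of_apply, if_true, zero_mul, add_zero, v]
        by_cases hjl : j < l'
        · rw [if_pos hjl]; field_simp; ring
        · rw [if_neg hjl, mul_zero, add_zero]
          exact hzero l' (lt_of_le_of_ne (not_lt.1 hjl) (fun e => hl' (Fin.ext e)))

/-- Bruhat decomposition: every element is upper triangular times a permutation matrix times upper triangular. -/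
theorem bruhat (g : GL (Fin n) F) : ∃ (b c : GL (Fin n) F) (σ : Equiv.Perm (Fin n)),
    IsUpperTri b ∧ IsUpperTri c ∧ g = b * permGL σ * c := by
  classical
  obtain ⟨b, c, hb, hc, hcl⟩ := exists_cleared g n le_rfl
  set G := b * g * c with hG
  have hcl' : ∀ l : Fin n, ∃ p : Fin n, (∀ i, (G : Matrix (Fin n) (Fin n) F) i l ≠ 0 ↔ i = p) ∧
      ∀ l', l' ≠ l → (G : Matrix (Fin n) (Fin n) F) p l' = 0 := fun l => hcl l l.isLt
  choose p hp hrow using hcl'
  have hinj : Function.Injective p := by
    intro l l' h
    by_contra hne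
    exact (hp l' (p l')).2 rfl (h ▸ hrow l l' (Ne.symm hne))
  let σ : Equiv.Perm (Fin n) := Equiv.ofBijective p (Finite.injective_iff_bijective.1 hinj)
  let D : GL (Fin n) F := (permGL σ)⁻¹ * G
  have hD : IsUpperTri D := by
    intro x y hxy
    have hxy' : y < x := hxy
    change (((permGL σ)⁻¹ * G : GL (Fin n) F) : Matrix (Fin n) (Fin n) F) x y = 0
    rw [← map_inv, Units.val_mul, Matrix.mul_apply]
    refine Finset.sum_eq_zero fun z _ => ?_
    rw [permGL_apply]
    split_ifs with h
    · have hz : z = p x := by rw [h]; exact (σ.apply_symm_apply z).symm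
      rw [one_mul, hz]
      exact hrow x y hxy'.ne
    · simp
  refine ⟨b⁻¹, D * c⁻¹, σ, hb.inv, hD.mul hc.inv, ?_⟩
  simp only [D, hG, mul_assoc, mul_inv_cancel_left, inv_mul_cancel_left, mul_inv_cancel, mul_one]

end Cfsg.Agent.H70
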