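import Cfsg.Agent.H70.SLGen

set_option autoImplicit false

/-! The explicit two-element generating sets of `SL_{n+1}`. -/

namespace Cfsg.Agent.H70

open Matrix Fin.NatCast
open scoped commutatorElement

variable {K : Type*} [Field K]

/-- The signed cycle matrix is monomial. -/
theorem cycle_monomial {n : ℕ} (hn : 1 ≤ n) (w : SpecialLinearGroup (Fin (n + 1)) K)
    (hw : (w : Matrix (Fin (n + 1)) (Fin (n + 1)) K) =
      Matrix.of (fun i j => if j.val = i.val + 1 then 1 else if i.val = n ∧ j.val = 0 then (-1) ^ n else 0))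
    (i j : Fin (n + 1)) :
    (w : Matrix (Fin (n + 1)) (Fin (n + 1)) K) i j =
      if j = Equiv.addRight (1 : Fin (n + 1)) i then (if i.val = n then (-1 : K) ^ n else 1) else 0 := by
  rw [hw]
  simp only [Matrix.of_apply]
  have es : Equiv.addRight (1 : Fin (n + 1)) i = i + 1 := rfl
  generalize Equiv.addRight (1 : Fin (n + 1)) i = t at es
  subst es
  have hi := i.isLt
  have hj := j.isLt
  by_cases h : i.val = n
  · have e : i + 1 = 0 := by
      apply Fin.ext; simp [Fin.val_add, h]
    rw [e]
    by_cases h0 : j = 0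
    · subst h0; simp [h]
    · have : j.val ≠ 0 := fun hh => h0 (Fin.ext hh)
      simp [h, h0, this, show j.val ≠ n + 1 by omega]
  · have e : (i + 1).val = i.val + 1 := by
      rw [Fin.val_add, Fin.val_one', Nat.one_mod_eq_one.2 (by omega), Nat.mod_eq_of_lt (by omega)]
    by_cases h0 : j = i + 1
    · simp [h0, e, h]
    · have : j.val ≠ i.val + 1 := fun hh => h0 (Fin.ext (by omega))
      simp [h0, this, h]

/-- A subgroup containing the cycle and all first root elements is everything. -/
theorem eq_top_of_cycle {n : ℕ} (hn : 1 ≤ n) (H : Subgroup (SpecialLinearGroup (Fin (n + 1)) K))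
    (w : SpecialLinearGroup (Fin (n + 1)) K)
    (hw : (w : Matrix (Fin (n + 1)) (Fin (n + 1)) K) =
      Matrix.of (fun i j => if j.val = i.val + 1 then 1 else if i.val = n ∧ j.val = 0 then (-1) ^ n else 0))
    (hwH : w ∈ H) (h01 : (0 : Fin (n + 1)) ≠ 1)
    (hx : ∀ c : K, SpecialLinearGroup.transvection h01 c ∈ H) : H = ⊤ := by
  haveI : NeZero n := ⟨by omega⟩
  set σ : Equiv.Perm (Fin (n + 1)) := Equiv.addRight 1 with hσ
  set ε : Fin (n + 1) → K := fun i => if i.val = n then (-1 : K) ^ n else 1 with hε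
  have hε0 : ∀ i, ε i ≠ 0 := fun i => by
    simp only [hε]; split <;> simp
  refine eq_top_of_cyclic_transvection_mem H ?_
  have base : ∀ (m : ℕ) (h : -(m : Fin (n + 1)) ≠ -(m : Fin (n + 1)) + 1) (c : K),
      SpecialLinearGroup.transvection h c ∈ H := by
    intro m
    induction m with
    | zero =>
      intro h c
      convert hx c using 3 <;> simp
    | succ m ih =>
      intro h c
      set a : Fin (n + 1) := -((m + 1 : ℕ) : Fin (n + 1)) with ha
      have e1 : σ a = -(m : Fin (n + 1)) := by simp [hσ, ha]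
      have e2 : σ (a + 1) = -(m : Fin (n + 1)) + 1 := by simp [hσ, ha]
      have key := monomial_conj_transvection σ ε w (cycle_monomial hn w hw) h
        (c * ε (a + 1) / ε a) c (by field_simp [hε0 a])
      have hT : SpecialLinearGroup.transvection (σ.injective.ne h) (c * ε (a + 1) / ε a) ∈ H := by
        have h' : -(m : Fin (n + 1)) ≠ -(m : Fin (n + 1)) + 1 := by simp
        convert ih h' (c * ε (a + 1) / ε a) using 3
      have e := H.mul_mem (H.mul_mem hwH hT) (H.inv_mem hwH)
      rw [key, mul_inv_cancel_right] at e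
      exact e
  intro i h c
  have e : -((((-i : Fin (n + 1)) : ℕ)) : Fin (n + 1)) = i := by simp
  have h' : -((((-i : Fin (n + 1)) : ℕ)) : Fin (n + 1)) ≠ -((((-i : Fin (n + 1)) : ℕ)) : Fin (n + 1)) + 1 := by
    rw [e]; exact h
  convert base ((-i : Fin (n + 1)) : ℕ) h' c using 3 <;> rw [e]

/-- `SL_{n+1}(q)` for `q > 3` is generated by the diagonal element and `x w`. -/
theorem closure_h_xw_eq_top [Fintype K] (hK : 3 < Fintype.card K) (n : ℕ) (hn : 1 ≤ n)
    (k : Kˣ) (hk : ∀ u : Kˣ, u ∈ Subgroup.zpowers k)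
    (h x w : SpecialLinearGroup (Fin (n + 1)) K)
    (hh : (h : Matrix (Fin (n + 1)) (Fin (n + 1)) K) =
      Matrix.diagonal (fun i => if i.val = 0 then (k : K) else if i.val = 1 then ((k⁻¹ : Kˣ) : K) else 1))
    (hx : (x : Matrix (Fin (n + 1)) (Fin (n + 1)) K) = Matrix.transvection (0 : Fin (n + 1)) (1 : Fin (n + 1)) 1)
    (hw : (w : Matrix (Fin (n + 1)) (Fin (n + 1)) K) =
      Matrix.of (fun i j => if j.val = i.val + 1 then 1 else if i.val = n ∧ j.val = 0 then (-1) ^ n else 0)) :
    Subgroup.closure ({h, x * w} : Set (SpecialLinearGroup (Fin (n + 1)) K)) = ⊤ := by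
  haveI : NeZero n := ⟨by omega⟩
  set H := Subgroup.closure ({h, x * w} : Set (SpecialLinearGroup (Fin (n + 1)) K)) with hH
  have hhH : h ∈ H := Subgroup.subset_closure (by simp)
  have hyH : x * w ∈ H := Subgroup.subset_closure (by simp)
  have h01 : (0 : Fin (n + 1)) ≠ 1 := by simp
  have hv1 : (1 : Fin (n + 1)).val = 1 := by simp; omega
  set d : Fin (n + 1) → K := fun i => if i.val = 0 then (k : K) else if i.val = 1 then ((k⁻¹ : Kˣ) : K) else 1 with hd
  have hd0 : d 0 = k := by simp [hd]
  have hd1 : d 1 = (k : K)⁻¹ := by simp [hd, hv1, show n ≠ 0 by omega]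
  have hdne : ∀ i, d i ≠ 0 := fun i => by
    simp only [hd]; split_ifs <;> simp
  have hdiag : ∀ i j, (h : Matrix (Fin (n + 1)) (Fin (n + 1)) K) i j =
      if j = (Equiv.refl (Fin (n + 1))) i then d i else 0 := by
    intro i j; rw [hh, Matrix.diagonal_apply]; simp [eq_comm, hd]
  have hcard : orderOf k = Fintype.card K - 1 := by
    rw [orderOf_eq_card_of_forall_mem_zpowers hk, Nat.card_units, Nat.card_eq_fintype_card]
  have hk2 : (k : K) ^ 2 ≠ 1 := by
    intro hc
    have : orderOf k ≤ 2 := orderOf_le_of_pow_eq_one (by norm_num) (Units.ext (by simpa using hc))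
    omega
  have hk1 : (k : K) ≠ 1 := fun hc => hk2 (by rw [hc]; simp)
  -- conjugation by `h` rescales
  have hscale : ∀ c, SpecialLinearGroup.transvection h01 c ∈ H →
      SpecialLinearGroup.transvection h01 ((k : K) ^ 2 * c) ∈ H := by
    intro c hc
    have key := monomial_conj_transvection (Equiv.refl _) d h hdiag h01 c ((k : K) ^ 2 * c) (by
      rw [hd0, hd1]; field_simp [k.ne_zero])
    have := H.mul_mem (H.mul_mem hhH hc) (H.inv_mem hhH)
    rwa [show h * SpecialLinearGroup.transvection h01 c = _ from key, mul_inv_cancel_right] at this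
  -- the commutator `⁅h, y h y⁻¹⁆`
  set σ : Equiv.Perm (Fin (n + 1)) := Equiv.addRight 1 with hσ
  set ε : Fin (n + 1) → K := fun i => if i.val = n then (-1 : K) ^ n else 1 with hε
  set D : SpecialLinearGroup (Fin (n + 1)) K := w * h * w⁻¹ with hD
  have hDw : D * w = w * h := by simp [hD]
  have hDdiag : ∀ i j, (D : Matrix (Fin (n + 1)) (Fin (n + 1)) K) i j =
      if j = (Equiv.refl (Fin (n + 1))) i then d (i + 1) else 0 := by
    intro i j
    have hε0 : ε j ≠ 0 := by simp only [hε]; split <;> simp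
    have e : ((D : Matrix (Fin (n + 1)) (Fin (n + 1)) K) * (w : Matrix (Fin (n + 1)) (Fin (n + 1)) K)) i (σ j) =
        ((w : Matrix (Fin (n + 1)) (Fin (n + 1)) K) * (h : Matrix (Fin (n + 1)) (Fin (n + 1)) K)) i (σ j) := by
      exact congrArg (fun M : SpecialLinearGroup (Fin (n + 1)) K => (M : Matrix (Fin (n + 1)) (Fin (n + 1)) K) i (σ j)) hDw
    simp only [Matrix.mul_apply] at e
    rw [Finset.sum_eq_single j, Finset.sum_eq_single (σ i)] at e
    · rw [cycle_monomial hn w hw j, cycle_monomial hn w hw i, hdiag] at e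
      rw [← hσ] at e
      rw [if_pos rfl, if_pos rfl] at e
      by_cases hji : j = i
      · subst hji
        rw [if_pos (show σ j = (Equiv.refl (Fin (n + 1))) (σ j) from rfl), mul_comm] at e
        rw [if_pos (show j = (Equiv.refl (Fin (n + 1))) j from rfl)]
        have : ε j * (D : Matrix _ _ K) j j = ε j * d (σ j) := e
        simpa [hσ] using mul_left_cancel₀ hε0 this
      · rw [if_neg (show ¬ σ j = (Equiv.refl (Fin (n + 1))) (σ i) from σ.injective.ne hji), mul_zero] at e
        rw [if_neg (show ¬ j = (Equiv.refl (Fin (n + 1))) i from hji)]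
        have : (D : Matrix (Fin (n + 1)) (Fin (n + 1)) K) i j * ε j = 0 := e
        exact (mul_eq_zero.1 this).resolve_right hε0
    · intro b _ hb; rw [cycle_monomial hn w hw]; simp [← hσ, hb]
    · simp
    · intro b _ hb; rw [cycle_monomial hn w hw]; simp [← hσ, Ne.symm hb]
    · simp
  set a0 := d ((0 : Fin (n + 1)) + 1)
  set a1 := d ((1 : Fin (n + 1)) + 1)
  have ha0 : a0 = (k : K)⁻¹ := by simp [a0, hd1]
  have ha0ne : a0 ≠ 0 := hdne _
  have ha1ne : a1 ≠ 0 := hdne _
  have ha1 : a1 * (k : K) ≠ 1 := by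
    simp only [a1]
    rcases Nat.lt_or_ge n 2 with h2 | h2
    · have : n = 1 := by omega
      subst this
      rw [show (1 : Fin 2) + 1 = 0 from rfl, hd0]
      rwa [← sq]
    · have : ((1 : Fin (n + 1)) + 1).val = 2 := by
        rw [Fin.val_add, hv1, Nat.mod_eq_of_lt (by omega)]
      rw [show d ((1 : Fin (n + 1)) + 1) = 1 by simp only [hd]; rw [if_neg (by omega), if_neg (by omega)], one_mul]
      exact hk1
  set T : K → SpecialLinearGroup (Fin (n + 1)) K := fun c => SpecialLinearGroup.transvection h01 c with hT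
  have hxT : x = T 1 := Subtype.ext hx
  have hDT : ∀ c, D * T c = T (a0 * c / a1) * D := fun c =>
    monomial_conj_transvection (Equiv.refl _) _ D hDdiag h01 c _ (by
      show a0 * c / a1 * a1 = a0 * c
      rw [div_mul_cancel₀ _ ha1ne])
  have hhT : ∀ c, h * T c = T ((k : K) ^ 2 * c) * h := fun c =>
    monomial_conj_transvection (Equiv.refl _) _ h hdiag h01 c _ (by
      rw [hd0, hd1]; field_simp [k.ne_zero])
  have hcomm : h * D = D * h := by
    apply Subtype.ext
    change (h : Matrix (Fin (n + 1)) (Fin (n + 1)) K) * (D : Matrix (Fin (n + 1)) (Fin (n + 1)) K) =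
      (D : Matrix (Fin (n + 1)) (Fin (n + 1)) K) * (h : Matrix (Fin (n + 1)) (Fin (n + 1)) K)
    have eD : (D : Matrix (Fin (n + 1)) (Fin (n + 1)) K) = Matrix.diagonal fun i => d (i + 1) := by
      ext i j
      rw [hDdiag, Matrix.diagonal_apply]
      by_cases hij : i = j
      · subst hij
        rw [if_pos rfl]; exact if_pos rfl
      · rw [if_neg hij]
        exact if_neg (show ¬ j = (Equiv.refl (Fin (n + 1))) i from Ne.symm hij)
    rw [eD, hh, Matrix.diagonal_mul_diagonal, Matrix.diagonal_mul_diagonal]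
    congr 1; ext i; exact mul_comm _ _
  have hTT : ∀ c c', T c * T c' = T (c + c') := fun c c' =>
    (SpecialLinearGroup.transvection_add h01 c c').symm
  set e : K := 1 - a0 / a1 with he
  have hy : (x * w) * h * (x * w)⁻¹ = T e * D := by
    have : (x * w) * h * (x * w)⁻¹ = x * D * x⁻¹ := by simp [hD, mul_assoc]
    rw [this, hxT, show (T 1)⁻¹ = T (-1) from SpecialLinearGroup.transvection_inv h01 1,
      mul_assoc, hDT, ← mul_assoc, hTT]
    congr 2
    simp [he]; ring
  have hcomm2 : h * (T e * D) * h⁻¹ * (T e * D)⁻¹ = T (((k : K) ^ 2 - 1) * e) := by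
    rw [← mul_assoc h, hhT, mul_assoc (T _) h D, hcomm, ← mul_assoc (T _) D h, mul_inv_cancel_right,
      _root_.mul_inv_rev, ← mul_assoc, mul_inv_cancel_right,
      show (T e)⁻¹ = T (-e) from SpecialLinearGroup.transvection_inv h01 e, hTT]
    congr 1; ring
  set c0 : K := ((k : K) ^ 2 - 1) * e with hc0
  have hc0ne : c0 ≠ 0 := by
    refine mul_ne_zero (sub_ne_zero.2 hk2) (sub_ne_zero.2 fun h1 => ha1 ?_)
    rw [eq_comm, div_eq_one_iff_eq ha1ne, ha0] at h1
    rw [← h1, inv_mul_cancel₀ k.ne_zero]
  have hc0H : T c0 ∈ H := by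
    rw [← hcomm2, ← hy]
    have := H.mul_mem (H.mul_mem hyH hhH) (H.inv_mem hyH)
    exact H.mul_mem (H.mul_mem (H.mul_mem hhH this) (H.inv_mem hhH)) (H.inv_mem this)
  set R : AddSubgroup K :=
    { carrier := {a | T (a * c0) ∈ H}
      zero_mem' := by simp [hT]
      add_mem' := fun {a b} ha hb => by
        show T ((a + b) * c0) ∈ H
        rw [add_mul, ← hTT]; exact H.mul_mem ha hb
      neg_mem' := fun {a} ha => by
        show T (-a * c0) ∈ H
        rw [neg_mul, ← show (T (a * c0))⁻¹ = T (-(a * c0)) from SpecialLinearGroup.transvection_inv h01 _]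
        exact H.inv_mem ha } with hR
  have hpow : ∀ i : ℕ, (k : K) ^ (2 * i) ∈ R := by
    intro i
    induction i with
    | zero => show T (_ * c0) ∈ H; simpa using hc0H
    | succ i ih =>
      show T (_ * c0) ∈ H
      have := hscale _ ih
      rwa [← mul_assoc, ← pow_add, show 2 + 2 * i = 2 * (i + 1) by ring] at this
  have hRtop : R = ⊤ := by
    classical
    refine addSubgroup_eq_top_of_half R ?_
    let f : Option (Fin (orderOf (k ^ 2))) → R := fun o =>
      match o with
      | none => 0
      | some i => ⟨_, hpow i⟩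
    have hf : Function.Injective f := by
      intro o o' hoo
      match o, o' with
      | none, none => rfl
      | none, some i => exact absurd (congrArg Subtype.val hoo).symm (pow_ne_zero _ k.ne_zero)
      | some i, none => exact absurd (congrArg Subtype.val hoo) (pow_ne_zero _ k.ne_zero)
      | some i, some j =>
        have e1 : k ^ (2 * (i : ℕ)) = k ^ (2 * (j : ℕ)) := Units.ext (by simpa [f] using congrArg Subtype.val hoo)
        rw [pow_mul, pow_mul] at e1
        exact congrArg some (Fin.ext (pow_injOn_Iio_orderOf (x := k ^ 2) i.isLt j.isLt e1))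
    have := Nat.card_le_card_of_injective f hf
    simp only [Nat.card_eq_fintype_card, Fintype.card_option, Fintype.card_fin] at this ⊢
    rw [orderOf_pow, hcard] at this
    have hg : Nat.gcd (Fintype.card K - 1) 2 ∣ 2 := Nat.gcd_dvd_right _ _
    have hg' : Nat.gcd (Fintype.card K - 1) 2 ∣ Fintype.card K - 1 := Nat.gcd_dvd_left _ _
    rcases (Nat.dvd_prime Nat.prime_two).1 hg with hg1 | hg2
    · rw [hg1, Nat.div_one] at this; omega
    · rw [hg2] at this hg'; omega
  have hall : ∀ c, T c ∈ H := by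
    intro c
    have : c / c0 ∈ R := hRtop ▸ AddSubgroup.mem_top _
    have : T (c / c0 * c0) ∈ H := this
    rwa [div_mul_cancel₀ _ hc0ne] at this
  have hwH : w ∈ H := by
    have := H.mul_mem (H.inv_mem (hxT ▸ hall 1 : x ∈ H)) hyH
    rwa [inv_mul_cancel_left] at this
  exact eq_top_of_cycle hn H w hw hwH h01 hall

/-- `SL_{n+1}(q)` for `q ≤ 3` is generated by `x` and `w`. -/
theorem closure_x_w_eq_top [Fintype K] (hK : Fintype.card K ≤ 3) (n : ℕ) (hn : 1 ≤ n)
    (x w : SpecialLinearGroup (Fin (n + 1)) K)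
    (hx : (x : Matrix (Fin (n + 1)) (Fin (n + 1)) K) = Matrix.transvection (0 : Fin (n + 1)) (1 : Fin (n + 1)) 1)
    (hw : (w : Matrix (Fin (n + 1)) (Fin (n + 1)) K) =
      Matrix.of (fun i j => if j.val = i.val + 1 then 1 else if i.val = n ∧ j.val = 0 then (-1) ^ n else 0)) :
    Subgroup.closure ({x, w} : Set (SpecialLinearGroup (Fin (n + 1)) K)) = ⊤ := by
  haveI : NeZero n := ⟨by omega⟩
  have h01 : (0 : Fin (n + 1)) ≠ 1 := by simp
  have hxT : x = SpecialLinearGroup.transvection h01 1 := Subtype.ext hx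
  refine eq_top_of_cycle hn _ w hw (Subgroup.subset_closure (by simp)) h01 fun c => ?_
  set R := paramSet (Subgroup.closure ({x, w} : Set (SpecialLinearGroup (Fin (n + 1)) K))) h01 with hR
  have h1 : (1 : K) ∈ R := by
    rw [hR, mem_paramSet, ← hxT]; exact Subgroup.subset_closure (by simp)
  have hRtop : R = ⊤ := by
    refine addSubgroup_eq_top_of_half R ?_
    have h2 : 1 < Nat.card R := by
      haveI : Nontrivial R := ⟨⟨1, h1⟩, 0, fun hh => one_ne_zero (congrArg Subtype.val hh)⟩
      exact Finite.one_lt_card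
    rw [Nat.card_eq_fintype_card]
    omega
  have : c ∈ R := hRtop ▸ AddSubgroup.mem_top _
  exact this

end Cfsg.Agent.H70
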